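import Cfsg.Agent.H0.Fld2
import Cfsg.Agent.H0.MS43.Main
set_option maxRecDepth 100000
set_option Elab.async false
namespace H0.IS43
open Cfsg BN Matrix

noncomputable def C := ((mcRC (H6.rcZ 3 2 (by decide)) 4).reix (finSumFinEquiv (m := 2) (n := 2)))
theorem hC : Rd (H6.rcZ 3 2 (by decide)) (finSumFinEquiv (m := 2) (n := 2)) C := (rd_rc _ _)

def c : List ℕ := [0xa9a66194, 0x40020412, 0x40918501, 0x40220410, 0x6a0a0416, 0x52642546, 0x244a61a1, 0x6a262a4, 0xa8204092, 0x420982a, 0x58105009, 0x24108485, 0x68100415, 0x54100429, 0x44208002, 0x4108801, 0x4108801, 0x88104001]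
def ds : List (List ℕ) := [[2, 0, 2, 0, 3, 0, 3, 4, 2, 2, 0, 2, 0, 3, 0, 3, 4, 2, 2, 0, 2, 0, 3, 0, 3, 4, 2, 2, 0, 2, 0, 3, 0, 3, 4, 2, 2, 0, 2, 0, 3, 0, 3, 4, 2, 2, 0, 2, 0, 3, 0, 3, 4, 2], [2, 1, 3, 3, 2, 1, 0, 0, 1], [6, 6, 6, 6], [7, 5, 7, 7, 5, 7], [8, 8, 8, 8, 8], [7, 7, 5, 6, 6, 5, 7, 7], [10, 10, 10, 10, 10], [8, 11, 8, 11], [12, 12], [9, 10, 9, 9, 10], [14, 14], [15], [16, 16]]
noncomputable def ι := ιSp 2 (ZMod 3)
theorem hι : Function.Injective ι := ιSp_inj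
theorem ex : ∀ x < 5, Ex ι C (c.getD x C.one) := ex_all (ex_Sp hC 2 0x4018020 (by decide +kernel) (by decide +kernel)) (by decide +kernel)
noncomputable def g := gOf ι C c ds 5 ex
theorem cod : C.Cod ι g c := cod_gOf (by decide +kernel)
theorem rel : ∀ w ∈ MS43.B.map (sh 5), ev g w ∈ Subgroup.center _ := (H0.all_take_done (H0.all_take_step (H0.all_take_zero _ (MS43.B.map (sh 5))) (C.rel_cen hι cod (W := ((MS43.B.map (sh 5)).drop 0).take 55) (by decide +kernel))) (by decide +kernel))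
theorem card : Nat.card (PSp 2 (ZMod 3)) = 25920 := by
  exact cardB (card_psp (ZMod.card 3) 2 (by decide)) (by decide +kernel)
theorem iso : Nonempty (PG 13 MS43.B ≃* (PSp 2 (ZMod 3))) :=
  iso_q cod rel (MS43.simple (Pres.pg 13 MS43.B)) (MS43.card (Pres.pg 13 MS43.B)) card (by decide +kernel)
end H0.IS43
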