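import Cfsg.Agent.H0.Fld2
import Cfsg.Agent.H0.MU34.Main
import Cfsg.Agent.S0280
set_option maxRecDepth 100000
set_option Elab.async false
namespace H0.IU34
open Cfsg BN Matrix

noncomputable def C := (mcRC r16 3)
theorem hC : Rd r16 (Equiv.refl _) C := rd_refl

def c : List ℕ := [0x7977aec6, 0x10007e097, 0x757784f6, 0x100067076, 0x7c3a65240, 0x75ea4d2a, 0x9b7c345c, 0x9e8f88441, 0xe859f5ff1, 0x5a5a5566c, 0x4c6c4644a, 0x37f8cf22c, 0x2f37a388a]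
def ds : List (List ℕ) := [[2, 0, 3, 2, 0, 2, 1, 1, 1, 2, 3, 0, 0, 2, 0, 3, 2, 0, 2, 1, 1, 1, 2, 3, 0, 0, 2, 0, 3, 2, 0, 2, 1, 1, 1, 2, 3, 0, 0, 2, 0, 3, 2, 0, 2, 1, 1, 1, 2, 3, 0, 0, 2, 0, 3, 2, 0, 2, 1, 1, 1, 2, 3, 0, 0], [3, 3, 1, 1, 3, 1, 1, 1, 1, 2], [5, 5], [5, 4, 6, 4, 5, 4, 6, 4, 6, 4, 5, 4, 6], [7, 7], [6, 4, 5, 4, 6, 4, 5, 4, 5, 4, 6, 4, 6], [9, 9, 9, 9], [8, 10, 8, 9, 9, 7], [11, 11, 11, 11, 11, 11, 11, 11, 11, 11, 11, 11, 11, 11]]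
noncomputable def ι := ιSU 3 G16 4
theorem hι : Function.Injective ι := ιSU_inj
theorem ex : ∀ x < 4, Ex ι C (c.getD x C.one) := ex_all (ex_SU hC 2 2 (by decide) (by decide)) (by decide +kernel)
noncomputable def g := gOf ι C c ds 4 ex
theorem cod : C.Cod ι g c := cod_gOf (by decide +kernel)
theorem rel : ∀ w ∈ MU34.B.map (sh 4), ev g w ∈ Subgroup.center _ := (H0.all_take_done (H0.all_take_step (H0.all_take_zero _ (MU34.B.map (sh 4))) (C.rel_cen hι cod (W := ((MU34.B.map (sh 4)).drop 0).take 46) (by decide +kernel))) (by decide +kernel))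
theorem card : Nat.card (PSU 3 G16 4) = 62400 := by
  exact cardA (Cfsg.Agent.S0280.result (q := 4) k16 3 (by decide)) (by decide +kernel)
theorem iso : Nonempty (PG 9 MU34.B ≃* (PSU 3 G16 4)) :=
  iso_q cod rel (MU34.simple (Pres.pg 9 MU34.B)) (MU34.card (Pres.pg 9 MU34.B)) card (by decide +kernel)
end H0.IU34
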