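import Cfsg.Agent.H6.More
import Cfsg.Agent.H6.Iso

/-! Six-point subsets and related configurations for the Mathieu group of degree 24. -/

namespace H0
open H6 Cfsg Finset MulAction
open scoped Pointwise
set_option maxRecDepth 100000
abbrev fxs (s : Finset GolayPt) : Subgroup M24 := fixingSubgroup M24 (s : Set GolayPt)
theorem mem_fxs {s : Finset GolayPt} {g : M24} : g ∈ fxs s ↔ ∀ p ∈ s, g • p = p := mem_fixingSubgroup_iff _
def g5 : List ℕ := [0x9157641ab37b52a89dd065e8418820, 0x4950f6c0d2a2e6c72af53c6c418820, 0x85e55352764bda72b1cb5450418820]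
theorem g5_ok : allL (fxA inM 31) g5 = true := by decide +kernel
theorem card5 : Nat.card (fxs (dec 31)) ≤ 48 :=
  le_trans (Subgroup.card_le_of_le (K := ⊤ ⊓ stabilizer M24 emb5) fun g hg => ⟨trivial, Function.Embedding.ext fun i : Fin 5 => mem_fxs.1 hg (pt i) (by revert i; decide +kernel)⟩) card_stab_emb5
theorem six_std {s : Finset GolayPt} (h : s.card = 6) : ∃ g : M24, g • dec 0x9f = s ∨ g • dec 0x3f = s := by
  obtain ⟨p, hp⟩ : s.Nonempty := card_pos.1 (by omega)
  obtain ⟨g, hg⟩ := tr_set (s := dec 31) (t := s.erase p) (by rw [card_erase_of_mem hp, h]; decide +kernel) (by decide +kernel)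
  obtain ⟨x, hx, k, hk, e⟩ := (ckA 31).coverP g5_ok (A := {p | p ∉ dec 31}) (fun k hk b hb hb' => hb (by
      have := mem_fxs.1 (inv_mem hk) _ hb'
      rw [inv_smul_smul] at this; exact this ▸ hb')) (xs := [7, 5]) (by decide +kernel)
    (by rw [ncard_compl_pts]; decide +kernel) (g⁻¹ • p) (by rw [Set.mem_setOf_eq, inv_smul_mem_iff, hg]; exact notMem_erase _ _)
  have key : (g * k) • insert (pt x) (dec 31) = s := by
    rw [mul_smul, smul_finset_insert, e, smul_eq_of_fix (mem_fxs.1 hk), smul_finset_insert, smul_inv_smul, hg, insert_erase hp]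
  refine ⟨g * k, ?_⟩
  simp only [List.mem_cons, List.not_mem_nil, or_false] at hx
  rcases hx with rfl | rfl
  exacts [Or.inl ((congrArg _ (by decide +kernel)).trans key), Or.inr ((congrArg _ (by decide +kernel)).trans key)]
theorem fxs_ins (p : GolayPt) (s : Finset GolayPt) : fxs (insert p s) = fxs s ⊓ stabilizer M24 p := by
  ext g; simp only [mem_fxs, mem_insert, forall_eq_or_imp, Subgroup.mem_inf, mem_stabilizer_iff, and_comm]
theorem card9f : Nat.card (fxs (dec 0x9f)) = 16 := by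
  refine le_antisymm ?_ (le_trans (by decide +kernel) ((ckA _).chain_le [(5, [0x451368ae6e2c0cc92ab73b5e418820, 0x5c613a22d56a5ecba9d2394c418820, 0x9c8cbbd90573d2ca29b13d60418820, 0x2a695835d34464c32acf3aee418820])]))
  rw [show dec 0x9f = insert (pt 7) (dec 31) by decide +kernel, fxs_ins]
  exact card_le_of_orb card5 (d := 3) (le_trans (by decide +kernel) ((ckA 31).orbP_le g5_ok (j := 7) (by decide))) (by decide) (by decide)
theorem card3f : Nat.card (fxs (dec 0x3f)) = 3 := by
  refine le_antisymm ?_ (le_trans (by decide +kernel) ((ckA _).chain_le [(6, [0x7520f4cee6b450a69e4b654a418820])]))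
  rw [show dec 0x3f = insert (pt 5) (dec 31) by decide +kernel, fxs_ins]
  exact card_le_of_orb card5 (d := 16) (le_trans (by decide +kernel) ((ckA 31).orbP_le g5_ok (j := 5) (by decide))) (by decide) (by decide)
theorem stab9f : 11520 ≤ Nat.card (stabilizer M24 (dec 0x9f)) := le_trans (by decide +kernel) ((ckS _).chain_le [(0, [0x2a5cba21af34eaa832f124ac200ce1]), (1, [0x45692346c97aeec2a9b00ba6339040]), (2, [0x8b6957da082cd2a5b257199c221c20]), (3, [0x9bd2d2c4d05d50cb29d424ae338820]), (5, [0x4950f6c0d2a2e6c72af53c6c418820, 0x6a2e5b3aa93522a9b1eb2424718820]), (4, [0xb99b28523343aaa4b16f258a718820])])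
theorem stab3f : 2160 ≤ Nat.card (stabilizer M24 (dec 0x3f)) := le_trans (by decide +kernel) ((ckS _).chain_le [(2, [0x44ae9629719b6d5a18ef8384029061]), (1, [0x6a6b2bc5709a15463dc7b182020865]), (0, [0x9d2b66a1267c94e3dd6c8c08300825]), (3, [0x3d2afbc550b3169449cd9986520820]), (4, [0x55a0f94cf5a310e5dd2d8988518820]), (6, [0x8bcd6925d5a5d674326d540a418820])])
theorem six_cases {s : Finset GolayPt} (h : s.card = 6) : ((∃ o ∈ octads, s ⊆ o) ∧ Nat.card (fxs s) = 16 ∧ 11520 ≤ Nat.card (stabilizer M24 s)) ∨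
    ((¬ ∃ o ∈ octads, s ⊆ o) ∧ Nat.card (fxs s) = 3 ∧ 2160 ≤ Nat.card (stabilizer M24 s)) := by
  obtain ⟨g, rfl | rfl⟩ := six_std h
  · exact Or.inl ⟨⟨g • O0, (smul_mem_octads _ _).2 O0_mem, smul_finset_subset_smul_finset (by decide +kernel)⟩,
      (Cj.fixing g _).card.trans card9f, stab9f.trans_eq (Cj.stab g (dec 0x9f)).card.symm⟩
  · refine Or.inr ⟨fun ⟨o, ho, hs⟩ => ?_, (Cj.fixing g _).card.trans card3f, stab3f.trans_eq (Cj.stab g (dec 0x3f)).card.symm⟩
    have hs : dec 0x3f ⊆ g⁻¹ • o := subset_smul_finset_iff.2 (by rwa [inv_inv])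
    have : O0 = g⁻¹ • o := octad_eq_of_five O0_mem ((smul_mem_octads _ _).2 ho) (le_trans (by decide +kernel) (card_le_card (inter_subset_inter_left hs)))
    exact absurd (this ▸ hs) (by decide +kernel)
theorem fxs_octad {s o : Finset GolayPt} (h : s.card = 6) (ho : o ∈ octads) (hs : s ⊆ o) : fxs s = fxs o :=
  (Subgroup.eq_of_le_of_card_ge (fun _ hg => mem_fxs.2 fun p hp => mem_fxs.1 hg p (hs hp))
    (by rw [card_fix_octad ho, ((six_cases h).resolve_right fun h => h.1 ⟨o, ho, hs⟩).2.1])).symm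
theorem fix5_dod {d s : Finset GolayPt} (hd : d ∈ dodecads) (hs : s ⊆ d) (h5 : 5 ≤ s.card) {g : M24} (hg : g • d = d) (h : ∀ p ∈ s, g • p = p) : g = 1 := by
  obtain ⟨x, hx⟩ := Function.Embedding.exists_of_card_le_finset (α := Fin 5) (s := s) (by simpa using h5)
  have hx : ∀ i, x i ∈ s := fun i => hx ⟨i, rfl⟩
  exact ((M12_sharp hd x x (fun i => hs (hx i)) fun i => hs (hx i)).2.le ⟨hg, Function.Embedding.ext fun i => h _ (hx i)⟩ :)
end H0
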