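import Cfsg.Agent.H0.Rp
import Cfsg.Agent.H0.Emb
import Cfsg.Agent.H0.MatB

/-! Faithful representations of simple presented groups. -/

namespace H0
open BN
theorem inj_of_rep {M : Type} [Monoid M] (C : MC M) {k : ℕ} {B : List (List ℕ)} {c : List ℕ}
    (h : ∃ ρ : PG k B →* M, ∀ w, w.all (Nat.blt · k) = true → ρ (ev (Pres.pg k B).g w) = C.val (C.mev c w))
    (hk : (Nat.blt 0 k && C.neq (C.mev c [0]) C.one) = true) (hs : IsSimpleGroup (PG k B)) {G : Type*} [Group G] (e : Nonempty (PG k B ≃* G)) :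
    ∃ f : G →* Mˣ, Function.Injective f := by
  obtain ⟨ρ, hρ⟩ := h
  obtain ⟨e⟩ := e
  rw [Bool.and_eq_true] at hk
  refine ⟨ρ.toHomUnits.comp e.symm.toMonoidHom, Function.Injective.comp (g := ρ.toHomUnits) ?_ e.symm.injective⟩
  rcases hs.eq_bot_or_eq_top_of_normal ρ.toHomUnits.ker inferInstance with h | h
  · exact (MonoidHom.ker_eq_bot_iff _).1 h
  · have : ρ.toHomUnits (ev (Pres.pg k B).g [0]) = 1 := by rw [← MonoidHom.mem_ker, h]; trivial
    refine (C.hne _ _ hk.2 ?_).elim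
    rw [← hρ [0] (by simpa using hk.1), C.h1]; exact congrArg Units.val this
end H0
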