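import Cfsg.Agent.H0.Tr

/-! Primitivity on suborbits. -/

namespace H0
open BN Subgroup
namespace Model
variable {G : Type*} [Group G] (m : Model G)
theorem coat_sub {K : Subgroup G} {a lo d : ℕ} {ws : List (List ℕ)} (hO : m.orb K a = Set.Ico lo (lo + d)) (hS : gen m.g ws ≤ K)
    (hf : gen m.g ws ≤ m.pst [a]) (L : List (List ℕ × ℕ × ℕ))
    (h1 : ∀ t ∈ L, ev m.g t.1 ∈ K ∧ m.φ (ev m.g t.1) a = t.2.1 ∧ m.InOrb (gen m.g ws) t.2.1 t.2.2 ∧ m.InOrb (gen m.g (t.1 :: ws)) a (ival lo d))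
    (hN : Nat.ble (lo + d) m.R.N = true)
    (hc : (Nat.blt 1 d && allN (fun j => Nat.beq (lo + j) a || L.any (·.2.2.testBit (lo + j))) d) = true) :
    IsCoatom ((m.pst [a]).subgroupOf K) := by
  rw [Bool.and_eq_true, Nat.blt_eq] at hc
  refine ⟨fun h => ?_, fun M hM => ?_⟩
  · have k : ∀ j ∈ Set.Ico lo (lo + d), a = j := fun j hj => by
      obtain ⟨k, hk, rfl⟩ := hO.ge hj
      exact ((h.ge (mem_top ⟨k, hk⟩) : k ∈ m.pst [a]) a (by simp)).symm
    have := (k lo ⟨le_rfl, by omega⟩).symm.trans (k (lo + 1) ⟨by omega, by omega⟩); omega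
  obtain ⟨g, g1, g2⟩ := SetLike.exists_of_lt hM
  have key : ∀ x y : K, x ∈ M → m.φ x a = m.φ y a → y ∈ M := fun x y hx e => by
    simpa using mul_mem hx (hM.le (show x⁻¹ * y ∈ (m.pst [a]).subgroupOf K from fun b hb => by
      obtain rfl : b = a := by simpa using hb
      simp [← e]))
  have hb : m.φ g a ∈ Set.Ico lo (lo + d) := hO.le ⟨g, g.2, rfl⟩
  have := allN_spec hc.2 (m.φ g a - lo) (by have := hb.1; have := hb.2; omega)
  rw [Nat.add_sub_cancel' hb.1, Bool.or_eq_true, List.any_eq_true] at this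
  obtain e | ⟨t, ht, e⟩ := this
  · exact absurd (fun b hb => by obtain rfl : b = a := by simpa using hb
                                 exact Nat.eq_of_beq_eq_true e) g2
  obtain ⟨t1, t2, t3, t4⟩ := h1 t ht
  obtain ⟨s, s1, s2⟩ := t3 _ (hb.2.trans_le (Nat.le_of_ble_eq_true hN)) e
  have sM : ∀ s (h : s ∈ gen m.g ws), (⟨s, hS h⟩ : K) ∈ M := fun s h => hM.le (hf h)
  have wM := key _ ⟨_, t1⟩ (mul_mem (inv_mem (sM s s1)) g1) (by simp [← s2, t2])
  have le : gen m.g (t.1 :: ws) ≤ M.map K.subtype := gen_le fun w hw => (List.mem_cons.1 hw).elim (fun e => e ▸ ⟨_, wM, rfl⟩)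
    fun hw => ⟨_, sM _ (mem_gen _ hw), rfl⟩
  refine eq_top_iff.2 fun k _ => ?_
  obtain ⟨_, h, e⟩ := m.ico_subset_orb t4 hN (hO.le ⟨k, k.2, rfl⟩)
  obtain ⟨l, hl, rfl⟩ := le h
  exact key l k hl e
theorem coat_orb {K : Subgroup G} {a b : ℕ} (h : IsCoatom ((m.pst [a]).subgroupOf K)) (hb : b ∈ m.orb K a) :
    IsCoatom ((m.pst [b]).subgroupOf K) := by
  obtain ⟨k, hk, rfl⟩ := hb
  convert (OrderIso.isCoatom_iff (MulAut.conj (⟨k, hk⟩ : K)).mapSubgroup _).2 h using 1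
  ext x
  refine Iff.trans ?_ (mem_map_equiv (f := MulAut.conj (⟨k, hk⟩ : K))).symm
  simp [mem_subgroupOf, mem_pst, Equiv.symm_apply_eq]
theorem pst_conj (x : G) (a : ℕ) : (m.pst [a]).map (MulAut.conj x).toMonoidHom = m.pst [m.φ x a] := by
  ext y
  rw [mem_map_equiv]
  simp [mem_pst, Equiv.symm_apply_eq]
end Model
end H0
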