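import Cfsg.Agent.H0.XsC
import Cfsg.Agent.H0.Tr

/-! Involution centralisers `2 × A` and `2 · Aₙ`. -/

namespace H0
open BN Subgroup Cfsg
variable {G : Type*} [Group G]

theorem gl_one (g : ℕ → G) (z : ℕ) : gl g [z] = zpowers (g z) := by
  rw [zpowers_eq_closure, gl, gen]; congr 1; ext; simp [eq_comm]

theorem two_prod {t : G} {K : Subgroup G} {A : Type*} [Group A] (ot : orderOf t = 2)
    (hC : centralizer {t} = zpowers t ⊔ K) (e : Nonempty (A ≃* K)) (hA : center A = ⊥) :
    Nonempty (centralizer ({t} : Set G) ≃* Multiplicative (ZMod 2) × A) := by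
  obtain ⟨e⟩ := e
  have k : ∀ x ∈ K, x * t = t * x := fun x hx => mem_centralizer_singleton_iff.1 (hC.ge (mem_sup_right hx))
  have t1 : t ≠ 1 := fun h => by simp [h] at ot
  let f := zHom (m := 2) t (ot ▸ pow_orderOf_eq_one t)
  have f0 : ∀ a, a = 1 ∨ (a ≠ 1 ∧ f a = t) := fun a => by
    rcases (by decide : ∀ a : Multiplicative (ZMod 2), a = 1 ∨ a = .ofAdd 1) a with rfl | rfl
    exacts [.inl rfl, .inr ⟨by decide, pow_one t⟩]
  have r : f.range = zpowers t := le_antisymm (by
    rintro _ ⟨a, rfl⟩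
    rcases f0 a with rfl | h
    exacts [by simp, h.2 ▸ mem_zpowers t]) (zpowers_le.2 ⟨.ofAdd 1, pow_one t⟩)
  have r2 : (K.subtype.comp e.toMonoidHom).range = K := by
    rw [MonoidHom.range_comp, MonoidHom.range_eq_top.2 e.surjective, ← MonoidHom.range_eq_map, range_subtype]
  have c : ∀ a b, Commute (f a) (K.subtype.comp e.toMonoidHom b) := fun a b => by
    rcases f0 a with rfl | h
    exacts [by simp, h.2 ▸ (k _ (e b).2).symm]
  have i := (MonoidHom.noncommCoprod_injective _ _ c).2 ⟨(injective_iff_map_eq_one f).2 fun a h =>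
    (f0 a).resolve_right fun h' => t1 (h'.2.symm.trans h), K.subtype_injective.comp e.injective, by
      rw [r, r2, disjoint_def]
      intro x hx hk
      refine ((zp2 ot).1 hx).resolve_right ?_
      rintro rfl
      have : e.symm ⟨x, hk⟩ ∈ center A := mem_center_iff.2 fun b => e.injective (Subtype.ext (by simpa using k _ (e b).2))
      rw [hA, mem_bot, map_eq_one_iff _ e.symm.injective] at this
      exact t1 (congrArg Subtype.val this)⟩
  exact ⟨((MonoidHom.ofInjective i).trans (MulEquiv.subgroupCongr (by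
    rw [MonoidHom.noncommCoprod_range, r, r2, hC]))).symm⟩

theorem alt_cen (n : ℕ) (hn : 3 ≤ n) : center (alternatingGroup (Fin (n + 2))) = ⊥ :=
  alternatingGroup.center_eq_bot (by simp; omega)

theorem alt_cov {g : ℕ → G} {z off n : ℕ} (ot : orderOf (g z) = 2) (hn : 3 ≤ n)
    (hC : centralizer {g z} = gl g [z] ⊔ gen g ((lets n).map (sh off))) (J : List ℕ)
    (h : ∀ e ∈ ((altW n).zip J).map fun r => (sh off r.1, List.replicate r.2 z), ev g e.1 = ev g e.2)
    (hJ : (Nat.beq (altW n).length J.length && (altW n).all fun r => r.all (Nat.blt · n)) = true)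
    (h1 : ev g [off] ≠ ev g []) (h2 : ev g [off] ≠ ev g [z]) {a b : ℕ} (hab : a < n ∧ b < n)
    (h3 : ev g [off + a, off + b] = ev g [z, off + b, off + a]) :
    IsNonsplitDoubleCover (centralizer ({g z} : Set G)) (alternatingGroup (Fin (n + 2))) := by
  classical
  simp only [Bool.and_eq_true, Nat.beq_eq] at hJ
  rw [← gen_sh, gl_one] at hC
  have m : ∀ x < n, g (off + x) ∈ centralizer {g z} := fun x hx => hC.ge (mem_sup_right (mem_lets _ hx))
  let y : centralizer ({g z} : Set G) := ⟨g z, hC.ge (mem_sup_left (mem_zpowers _))⟩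
  have hZ : zpowers y ≤ center _ := zpowers_le.2 (mem_center_iff.2 fun c => Subtype.ext (mem_centralizer_singleton_iff.1 c.2))
  have : (zpowers y).Normal := ⟨fun a ha c => by rwa [mem_center_iff.1 (hZ ha) c, mul_inv_cancel_right]⟩
  have zy : ∀ c : centralizer ({g z} : Set G), c ∈ zpowers y ↔ c.1 ∈ zpowers (g z) := fun c => by
    rw [← mem_map_iff_mem (subtype_injective _), MonoidHom.map_zpowers]; rfl
  let g' : ℕ → centralizer ({g z} : Set G) := fun x => if h : x < n then ⟨_, m x h⟩ else 1
  have e' : ∀ x < n, (g' x).1 = g (off + x) := fun x hx => by simp [g', hx]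
  obtain ⟨θ, i, r⟩ := alt_emb (g := fun x => QuotientGroup.mk' (zpowers y) (g' x)) (n := n) (fun w hw => by
    rw [← map_ev, QuotientGroup.mk'_apply, QuotientGroup.eq_one_iff, zy]
    obtain ⟨j, hj, rfl⟩ := List.getElem_of_mem hw
    have := h _ (List.mem_map_of_mem (List.getElem_mem (l := (altW n).zip J) (n := j) (by simp; omega)))
    simp only [List.getElem_zip, ev_sh, ev_rep] at this
    rw [← subtype_apply, map_ev, ← ev_congr (g := fun x => Subgroup.subtype _ (g' x)) e' (List.all_eq_true.1 hJ.2 _ hw), this]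
    exact npow_mem_zpowers _ _) hn (by
    simp only [ev_cons, ev_nil, mul_one, QuotientGroup.mk'_apply, ne_eq, QuotientGroup.eq_one_iff, zy, e' 0 (by omega), zp2 ot] at h1 h2 ⊢
    exact not_or.2 ⟨h1, h2⟩)
  have s : Function.Surjective θ := fun q => by
    obtain ⟨c, rfl⟩ := QuotientGroup.mk'_surjective _ q
    have : centralizer {g z} ≤ (θ.range.comap (QuotientGroup.mk' (zpowers y))).map (Subgroup.subtype _) :=
      hC.le.trans (sup_le (zpowers_le.2 ⟨y, by
        rw [SetLike.mem_coe, mem_comap, QuotientGroup.mk'_apply, (QuotientGroup.eq_one_iff y).2 (mem_zpowers y)]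
        exact one_mem _, rfl⟩) (gen_lets_le fun x hx => ⟨g' x, r.ge (mem_lets _ hx), e' x hx⟩))
    exact (mem_map_iff_mem (subtype_injective _)).1 (this c.2)
  have e := MulEquiv.ofBijective θ ⟨i, s⟩
  have c := center_of_quot hZ e (alt_cen n hn)
  refine CCov.nonsplit ⟨by rw [c, Nat.card_zpowers, ← orderOf_coe, ot],
    ⟨(QuotientGroup.quotientMulEquivOfEq c).trans e.symm⟩, c.le.trans (zpowers_le.2 ?_)⟩
  have : y = g' a * g' b * (g' a)⁻¹ * (g' b)⁻¹ := Subtype.ext (by
    simp only [ev_cons, ev_nil, mul_one] at h3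
    simp [e' a hab.1, e' b hab.2, h3, y, ← mul_assoc])
  exact this ▸ commutator_mem_commutator (mem_top _) (mem_top _)

end H0
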